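import Mathlib
import Cfsg.Agent.Lib.Helper69.APQ.Defs

/-!
# APQ (S4150) package [M6A]: a proper subgroup of `A_6` has order at most `60`

`Alt(β)` (`|β| = 6`) is simple of order `360`; a proper subgroup `K` of index `k` gives an
embedding into `Perm (Alt(β) ⧸ K)`, so `360 ≤ k!`, `k ≥ 6`, `|K| ≤ 60`.
-/

set_option autoImplicit false

namespace Cfsg.Agent.Lib.Helper71.APQ

open Cfsg.Agent.Lib.Helper69.APQ Equiv

universe u

/-- A finite simple group with a proper subgroup `K` has order at most `(index K)!`. -/
theorem card_le_factorial_index_m6 {A : Type u} [Group A] [Finite A] [IsSimpleGroup A]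
    (K : Subgroup A) (hK : K ≠ ⊤) : Nat.card A ≤ (K.index).factorial := by
  have hinj : Function.Injective (MulAction.toPermHom A (A ⧸ K)) := by
    rw [← MonoidHom.ker_eq_bot_iff, ← Subgroup.normalCore_eq_ker]
    rcases (K.normalCore_normal).eq_bot_or_eq_top with h | h
    · exact h
    · exact absurd (top_le_iff.mp (h ▸ Subgroup.normalCore_le K)) hK
  have h1 := Nat.card_le_card_of_injective _ hinj
  rwa [Nat.card_perm] at h1

theorem pkgM6A : PkgM6A.{u} := by
  intro β _ _ H h6 hH
  by_cases hEq : H = alternatingGroup β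
  · exact Or.inl hEq
  right
  have hc6 : Nat.card β = 6 := by rw [Nat.card_eq_fintype_card, h6]
  haveI : Nontrivial β := by
    rw [← Fintype.one_lt_card_iff_nontrivial, h6]
    norm_num
  haveI : IsSimpleGroup (alternatingGroup β) :=
    alternatingGroup.isSimpleGroup (by rw [hc6]; norm_num)
  have hA : Nat.card (alternatingGroup β) = 360 := by
    rw [nat_card_alternatingGroup, hc6]
    rfl
  have hKtop : H.subgroupOf (alternatingGroup β) ≠ ⊤ := by
    intro h
    rw [Subgroup.subgroupOf_eq_top] at h
    exact hEq (le_antisymm hH h)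
  have h1 := card_le_factorial_index_m6 (H.subgroupOf (alternatingGroup β)) hKtop
  rw [hA] at h1
  have h3 : 6 ≤ (H.subgroupOf (alternatingGroup β)).index := by
    by_contra hlt
    rw [not_le] at hlt
    have h2 : ((H.subgroupOf (alternatingGroup β)).index).factorial ≤ Nat.factorial 5 :=
      Nat.factorial_le (by omega)
    have h5 : Nat.factorial 5 = 120 := rfl
    omega
  have h4 : Nat.card (H.subgroupOf (alternatingGroup β)) *
      (H.subgroupOf (alternatingGroup β)).index = Nat.card (alternatingGroup β) :=
    Subgroup.card_mul_index _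
  have h5 : Nat.card (H.subgroupOf (alternatingGroup β)) = Nat.card H :=
    Nat.card_congr (Subgroup.subgroupOfEquivOfLe hH).toEquiv
  rw [← h5]
  rw [hA] at h4
  nlinarith

end Cfsg.Agent.Lib.Helper71.APQ
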